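import Cfsg.Agent.Lib.Spectrum.NseBasics
import Mathlib.GroupTheory.FixedPointFree

/-!
A group of order `q(q² - 1)` with the element count values of `PGL₂(q)`.
-/

set_option autoImplicit false
set_option linter.unusedSectionVars false
set_option linter.style.haveILetI false

open Finset CfsgLib.Spectrum

namespace CfsgLib.NSEPGL

/-- Order and count values of `PGL₂(q)`, `q = p ^ f` odd, `r = q² - 1`. -/
structure NseParams (G : Type*) [Group G] (p f q r : ℕ) : Prop where
  hp : p.Prime
  hp2 : p ≠ 2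
  hq : q = p ^ f
  hf : 1 ≤ f
  hr : q * q = r + 1
  hG : Nat.card G = q * r
  hvals : ∀ k, orderCount G k ≠ 0 → orderCount G k = 1 ∨ orderCount G k = q * q ∨
    orderCount G k = r ∨ (q ∣ orderCount G k ∧ Even (orderCount G k))
  hsq : ∃ k, orderCount G k = q * q

namespace NseParams

variable {G : Type*} [Group G] [Finite G] {p f q r : ℕ} (h : NseParams G p f q r)

include h

omit [Finite G] in
theorem dvd_q : p ∣ q := h.hq ▸ dvd_pow_self p (by have := h.hf; omega)

omit [Finite G] in
theorem three_le_p : 3 ≤ p := by have := h.hp.two_le; have := h.hp2; omega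

omit [Finite G] in
theorem q_ge : 3 ≤ q := h.three_le_p.trans (Nat.le_of_dvd (h.hq ▸ pow_pos h.hp.pos f) h.dvd_q)

omit [Finite G] in
theorem q_odd : Odd q := h.hq ▸ (h.hp.odd_of_ne_two h.hp2).pow

omit [Finite G] in
theorem cop : Nat.Coprime q r := by
  refine Nat.coprime_of_dvd fun s hs hsq hsr => ?_
  have : s ∣ r + 1 := h.hr ▸ hsq.mul_right q
  exact hs.one_lt.ne' (Nat.dvd_one.1 ((Nat.dvd_add_right hsr).1 this))

omit [Finite G] in
theorem r_pos : 8 ≤ r := by
  have := h.hr; have := Nat.mul_le_mul h.q_ge h.q_ge; omega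

omit [Finite G] in
theorem not_dvd_r : ¬ p ∣ r := fun hd =>
  h.hp.one_lt.ne' ((Nat.Coprime.coprime_dvd_left h.dvd_q h.cop).eq_one_of_dvd hd)

theorem count_two : orderCount G 2 = q * q := by
  obtain ⟨k, hk⟩ := h.hsq
  have hq9 := Nat.mul_le_mul h.q_ge h.q_ge
  rcases Nat.lt_or_ge k 3 with hk3 | hk3
  · obtain ⟨g, hg⟩ := (orderCount_ne_zero_iff (G := G)).1 (show orderCount G k ≠ 0 by omega)
    have := orderOf_pos g
    rcases (show k = 1 ∨ k = 2 by omega) with rfl | rfl
    · rw [orderCount_one] at hk; omega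
    · exact hk
  · exfalso
    have he := even_orderCount (G := G) hk3
    rw [hk, ← Nat.not_odd_iff_even] at he
    exact he (h.q_odd.mul h.q_odd)

theorem count_p : orderCount G p = r := by
  have hdvd : p ∣ Nat.card G := h.hG ▸ h.dvd_q.mul_right r
  have hs := dvd_sum_orderCount hdvd
  rw [h.hp.sum_divisors, orderCount_one] at hs
  have hne := orderCount_ne_zero_of_prime_dvd h.hp hdvd
  have he := even_orderCount (G := G) h.three_le_p
  have hnd : ¬ p ∣ orderCount G p := fun hd =>
    h.hp.one_lt.ne' (Nat.dvd_one.1 ((Nat.dvd_add_right hd).1 hs))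
  rcases h.hvals p hne with e | e | e | ⟨e, -⟩
  · rw [e] at he; exact absurd he Nat.not_even_one
  · exact absurd (e ▸ h.dvd_q.mul_right q) hnd
  · exact e
  · exact absurd (h.dvd_q.trans e) hnd

theorem dvd_or_eq {k : ℕ} (h1 : k ≠ 1) (h2 : k ≠ 2) : q ∣ orderCount G k ∨ orderCount G k = r := by
  by_cases hz : orderCount G k = 0
  · exact Or.inl (hz ▸ dvd_zero q)
  obtain ⟨g, hg⟩ := orderCount_ne_zero_iff.1 hz
  have hgpos := orderOf_pos g
  have he := even_orderCount (G := G) (m := k) (by omega)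
  rcases h.hvals k hz with e | e | e | ⟨e, -⟩
  · rw [e] at he; exact absurd he Nat.not_even_one
  · rw [e, ← Nat.not_odd_iff_even] at he
    exact absurd (h.q_odd.mul h.q_odd) he
  · exact Or.inr e
  · exact Or.inl e

/-- Away from `1`, `2` and `p` all counts are multiples of `q`. -/
theorem dvd_count {k : ℕ} (h1 : k ≠ 1) (h2 : k ≠ 2) (hkp : k ≠ p) : q ∣ orderCount G k := by
  classical
  haveI := Fintype.ofFinite G
  have hp3 := h.three_le_p
  set A : Finset ℕ := ((Finset.univ.image fun g : G => orderOf g) ∪ {k}) \ {1, 2, p} with hA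
  have htot : Nat.card G = 1 + q * q + r + ∑ m ∈ A, orderCount G m := by
    rw [card_eq_sum_orderCount (A := {1, 2, p} ∪ A) (fun m hm => by
      obtain ⟨g, rfl⟩ := orderCount_ne_zero_iff.1 hm
      simp only [hA, Finset.union_sdiff_self_eq_union, Finset.mem_union, Finset.mem_image]
      exact Or.inr (Or.inl ⟨g, Finset.mem_univ g, rfl⟩)),
      Finset.sum_union Finset.disjoint_sdiff,
      Finset.sum_insert (by simp only [Finset.mem_insert, Finset.mem_singleton]; omega),
      Finset.sum_insert (by simp only [Finset.mem_singleton]; omega),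
      Finset.sum_singleton, orderCount_one, h.count_two, h.count_p]
    ring
  set J := A.filter fun m => ¬ q ∣ orderCount G m with hJ
  have hJr : ∑ m ∈ J, orderCount G m = #J * r := by
    rw [← smul_eq_mul, ← Finset.sum_const]
    refine Finset.sum_congr rfl fun m hm => ?_
    obtain ⟨hmA, hmd⟩ := Finset.mem_filter.1 hm
    simp only [hA, Finset.mem_sdiff, Finset.mem_insert, Finset.mem_singleton, not_or] at hmA
    exact (h.dvd_or_eq hmA.2.1 hmA.2.2.1).resolve_left hmd
  have hrest : q ∣ ∑ m ∈ A.filter (fun m => q ∣ orderCount G m), orderCount G m :=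
    Finset.dvd_sum fun m hm => (Finset.mem_filter.1 hm).2
  rw [← Finset.sum_filter_add_sum_filter_not A (fun m => q ∣ orderCount G m), ← hJ, hJr, h.hG] at htot
  obtain ⟨M, hM⟩ := hrest
  rw [hM] at htot
  have hr := h.hr
  have hqJ : q ∣ #J * r := by
    have h5 : q ∣ 1 + q * q + r + (q * M + #J * r) := htot ▸ dvd_mul_right q r
    rw [show 1 + q * q + r + (q * M + #J * r) = q * (2 * q + M) + #J * r by linarith] at h5
    exact (Nat.dvd_add_right (dvd_mul_right q _)).1 h5
  have hJ0 : #J = 0 := by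
    rcases Nat.eq_zero_or_pos #J with h0 | hpos
    · exact h0
    exfalso
    have hle : q * r ≤ #J * r :=
      Nat.mul_le_mul_right r (Nat.le_of_dvd hpos (h.cop.dvd_of_dvd_mul_right hqJ))
    omega
  by_contra hd
  have hk : k ∈ J := Finset.mem_filter.2 ⟨by
    simp only [hA, Finset.mem_sdiff, Finset.mem_union, Finset.mem_insert, Finset.mem_singleton, not_or]
    exact ⟨Or.inr trivial, h1, h2, hkp⟩, hd⟩
  exact (Finset.card_pos.2 ⟨k, hk⟩).ne' hJ0

/-- The only order divisible by `p` is `p`. -/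
theorem orderOf_eq_p {g : G} (hg : p ∣ orderOf g) : orderOf g = p := by
  classical
  haveI := Fintype.ofFinite G
  by_contra hne
  set A : Finset ℕ := (Finset.univ.image fun g : G => orderOf g) ∪ r.divisors ∪ {p} with hA
  have htot := card_eq_sum_orderCount (G := G) (A := A) (fun m hm => by
    obtain ⟨x, rfl⟩ := orderCount_ne_zero_iff.1 hm
    simp [hA])
  have hr8 := h.r_pos
  have hdiv : ∑ m ∈ A.filter (fun m => ¬ p ∣ m), orderCount G m =
      ∑ m ∈ r.divisors, orderCount G m := by
    refine (Finset.sum_subset (fun m hm => ?_) fun m hm hm' => ?_).symm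
    · refine Finset.mem_filter.2 ⟨by simp only [hA, Finset.mem_union]; exact Or.inl (Or.inr hm), fun hd => ?_⟩
      exact h.not_dvd_r (hd.trans (Nat.dvd_of_mem_divisors hm))
    · by_contra hz
      obtain ⟨x, rfl⟩ := orderCount_ne_zero_iff.1 hz
      refine hm' (Nat.mem_divisors.2 ⟨?_, by omega⟩)
      have hco : Nat.Coprime (orderOf x) q := h.hq ▸ Nat.Coprime.pow_right f
        ((h.hp.coprime_iff_not_dvd).2 (Finset.mem_filter.1 hm).2).symm
      exact hco.dvd_of_dvd_mul_left (h.hG ▸ orderOf_dvd_natCard x)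
  have hfr := dvd_sum_orderCount (G := G) (m := r) (h.hG ▸ dvd_mul_left r q)
  rw [← Finset.sum_filter_add_sum_filter_not A (fun m => p ∣ m), hdiv,
    ← Finset.add_sum_erase _ _ (Finset.mem_filter.2 ⟨by simp [hA], dvd_refl p⟩ :
      p ∈ A.filter (fun m => p ∣ m)), h.count_p, h.hG] at htot
  set T := ∑ m ∈ (A.filter (fun m => p ∣ m)).erase p, orderCount G m with hT
  have hqT : q ∣ T := Finset.dvd_sum fun m hm => by
    obtain ⟨hmp, hm⟩ := Finset.mem_erase.1 hm
    have hpm := (Finset.mem_filter.1 hm).2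
    have hp3 := h.three_le_p
    refine h.dvd_count (fun e => ?_) (fun e => ?_) hmp
    · rw [e] at hpm; have := Nat.le_of_dvd one_pos hpm; omega
    · rw [e] at hpm; have := Nat.le_of_dvd two_pos hpm; omega
  have hrT : r ∣ T := by
    have h5 : r ∣ r + T + ∑ m ∈ r.divisors, orderCount G m := htot ▸ dvd_mul_left r q
    exact (Nat.dvd_add_right (dvd_refl r)).1 ((Nat.dvd_add_left hfr).1 h5)
  have hT0 : T = 0 := by
    obtain ⟨c, hc⟩ := Nat.Coprime.mul_dvd_of_dvd_of_dvd h.cop hqT hrT
    rcases c with _ | c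
    · rw [hc, mul_zero]
    · exfalso
      have : q * r ≤ T := by rw [hc]; exact Nat.le_mul_of_pos_right _ c.succ_pos
      omega
  have hmem : orderOf g ∈ (A.filter (fun m => p ∣ m)).erase p :=
    Finset.mem_erase.2 ⟨hne, Finset.mem_filter.2 ⟨by simp [hA], hg⟩⟩
  exact orderCount_ne_zero_iff.2 ⟨g, rfl⟩ ((Finset.sum_eq_zero_iff).1 hT0 _ hmem)

theorem not_commute_p {x z : G} (hx : orderOf x = p) (hxz : Commute x z) {s : ℕ} (hs : s.Prime)
    (hzs : orderOf z = s) : s = p := by
  by_contra hne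
  have ho := hxz.orderOf_mul_eq_mul_orderOf_of_coprime
    (by rw [hx, hzs]; exact (Nat.coprime_primes h.hp hs).2 (Ne.symm hne))
  rw [hx, hzs] at ho
  have := h.orderOf_eq_p (g := x * z) (ho ▸ dvd_mul_right p s)
  rw [ho] at this
  have h2 : s = 1 := Nat.eq_of_mul_eq_mul_left h.hp.pos (this.trans (mul_one p).symm)
  exact hs.one_lt.ne' h2

/-- Centralisers of elements of order `p` have order `q`. -/
theorem card_centralizer {x : G} (hx : orderOf x = p) :
    Nat.card (Subgroup.centralizer ({x} : Set G)) = q := by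
  haveI : Fact p.Prime := ⟨h.hp⟩
  set C := Subgroup.centralizer ({x} : Set G) with hC
  have hCp : IsPGroup p C := by
    rw [IsPGroup.iff_orderOf]
    intro c
    refine ⟨_, Nat.eq_prime_pow_of_unique_prime_dvd (orderOf_pos c).ne' fun {s} hs hsc => ?_⟩
    refine h.not_commute_p hx (z := (c : G) ^ (orderOf c / s))
      (Commute.pow_right (Subgroup.mem_centralizer_singleton_iff.1 c.2).symm _) hs ?_
    rw [← Subgroup.orderOf_coe]
    exact orderOf_pow_orderOf_div (orderOf_pos (c : G)).ne' (by rwa [Subgroup.orderOf_coe])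
  obtain ⟨a, ha⟩ := hCp.exists_card_eq
  have hd : Nat.card C ∣ q := by
    refine Nat.Coprime.dvd_of_dvd_mul_right ?_ (h.hG ▸ C.card_subgroup_dvd_card)
    rw [ha]
    exact Nat.Coprime.pow_left a ((h.hp.coprime_iff_not_dvd).2 h.not_dvd_r)
  refine le_antisymm (Nat.le_of_dvd (by have := h.q_ge; omega) hd) ?_
  have hle := card_le_centralizer_mul_orderCount x
  rw [hx, h.count_p, h.hG] at hle
  exact Nat.le_of_mul_le_mul_right hle (by have := h.r_pos; omega)

/-- The elements of order `p` are conjugate. -/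
theorem exists_conj {x u : G} (hx : orderOf x = p) (hu : orderOf u = p) : ∃ g : G, g * x * g⁻¹ = u := by
  set C := Subgroup.centralizer ({x} : Set G) with hC
  let φ : G ⧸ C → {g : G // orderOf g = p} := fun c =>
    ⟨c.out * x * c.out⁻¹, (MulEquiv.orderOf_eq (MulAut.conj c.out) x).trans hx⟩
  have hinj : Function.Injective φ := by
    intro a b hab
    have h'' : a.out * x * a.out⁻¹ = b.out * x * b.out⁻¹ := congrArg Subtype.val hab
    refine (a.out_eq.symm.trans (QuotientGroup.eq.2 ?_)).trans b.out_eq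
    refine Subgroup.mem_centralizer_singleton_iff.2 ?_
    calc a.out⁻¹ * b.out * x = a.out⁻¹ * (b.out * x * b.out⁻¹) * b.out := by group
      _ = a.out⁻¹ * (a.out * x * a.out⁻¹) * b.out := by rw [h'']
      _ = x * (a.out⁻¹ * b.out) := by group
  have hcard : Nat.card (G ⧸ C) = Nat.card {g : G // orderOf g = p} := by
    rw [← Subgroup.index_eq_card]
    have h1 := C.card_mul_index
    rw [h.card_centralizer hx, h.hG] at h1
    rw [Nat.eq_of_mul_eq_mul_left (by have := h.q_ge; omega) h1]
    exact h.count_p.symm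
  obtain ⟨c, hc⟩ := ((Nat.bijective_iff_injective_and_card φ).2 ⟨hinj, hcard⟩).2 ⟨u, hu⟩
  exact ⟨c.out, congrArg Subtype.val hc⟩

/-- The Sylow centraliser is abelian and normalised by an involution inverting it. -/
theorem exists_sylow :
    ∃ Q : Subgroup G, Nat.card Q = q ∧
      (∀ c ∈ Q, c ≠ 1 → orderOf c = p ∧ Subgroup.centralizer ({c} : Set G) = Q) ∧
      ∃ t ∈ Subgroup.normalizer (Q : Set G), orderOf t = 2 ∧
        (∀ c ∈ Q, t * c * t⁻¹ = c⁻¹) := by
  haveI : Fact p.Prime := ⟨h.hp⟩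
  have hne : orderCount G p ≠ 0 := by rw [h.count_p]; have := h.r_pos; omega
  obtain ⟨x, hx⟩ := orderCount_ne_zero_iff.1 hne
  set Q := Subgroup.centralizer ({x} : Set G) with hQ
  have hQc : Nat.card Q = q := h.card_centralizer hx
  have hord : ∀ c ∈ Q, c ≠ 1 → orderOf c = p := by
    intro c hc hc1
    refine h.orderOf_eq_p ?_
    have hd : orderOf c ∣ p ^ f := h.hq ▸ hQc ▸ Subgroup.orderOf_dvd_natCard Q hc
    obtain ⟨j, -, hj⟩ := (Nat.dvd_prime_pow h.hp).1 hd
    rcases j with _ | j
    · exact absurd (orderOf_eq_one_iff.1 (hj.trans (pow_zero p))) hc1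
    · exact hj ▸ dvd_pow_self p j.succ_ne_zero
  obtain ⟨g, hg⟩ := h.exists_conj hx (u := x⁻¹) (by rw [orderOf_inv, hx])
  have hgN : ∀ w, w ∈ Q ↔ g * w * g⁻¹ ∈ Q := by
    intro w
    rw [hQ, Subgroup.mem_centralizer_singleton_iff, Subgroup.mem_centralizer_singleton_iff]
    have hx' : x = g * x⁻¹ * g⁻¹ := by
      rw [← inv_inj]
      calc x⁻¹ = g * x * g⁻¹ := hg.symm
        _ = (g * x⁻¹ * g⁻¹)⁻¹ := by group
    constructor
    · intro e
      have e' : w * x⁻¹ = x⁻¹ * w := (Commute.inv_right (show Commute w x from e)).eq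
      conv_lhs => rw [hx']
      conv_rhs => rw [hx']
      calc g * w * g⁻¹ * (g * x⁻¹ * g⁻¹) = g * (w * x⁻¹) * g⁻¹ := by group
        _ = g * (x⁻¹ * w) * g⁻¹ := by rw [e']
        _ = g * x⁻¹ * g⁻¹ * (g * w * g⁻¹) := by group
    · intro e
      have e' : g * w * g⁻¹ * x⁻¹ = x⁻¹ * (g * w * g⁻¹) :=
        (Commute.inv_right (show Commute (g * w * g⁻¹) x from e)).eq
      rw [← hg] at e'
      have e'' : g * (w * x) * g⁻¹ = g * (x * w) * g⁻¹ := by
        calc g * (w * x) * g⁻¹ = g * w * g⁻¹ * (g * x * g⁻¹) := by group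
          _ = g * x * g⁻¹ * (g * w * g⁻¹) := e'
          _ = g * (x * w) * g⁻¹ := by group
      exact mul_left_cancel (mul_right_cancel e'')
  have hgmem : g ∈ Subgroup.normalizer (Q : Set G) := Subgroup.mem_normalizer_iff.2 hgN
  have hge : 2 ∣ orderOf g := by
    by_contra hodd
    obtain ⟨i, hi⟩ := exists_pow_eq_self_of_coprime (n := 2) (x := g)
      ((Nat.prime_two.coprime_iff_not_dvd).2 hodd)
    have hc2 : Commute (g ^ 2) x := by
      show g ^ 2 * x = x * g ^ 2
      rw [← mul_inv_eq_iff_eq_mul]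
      calc g ^ 2 * x * (g ^ 2)⁻¹ = g * (g * x * g⁻¹) * g⁻¹ := by rw [pow_two]; group
        _ = g * x⁻¹ * g⁻¹ := by rw [hg]
        _ = (g * x * g⁻¹)⁻¹ := by group
        _ = x := by rw [hg, inv_inv]
    have hc : g * x * g⁻¹ = x := by
      rw [mul_inv_eq_iff_eq_mul, ← hi]
      exact (hc2.pow_left i).eq
    rw [hg] at hc
    have h2 : x ^ 2 = 1 := by rw [pow_two]; exact mul_eq_one_iff_eq_inv.2 hc.symm
    have := Nat.le_of_dvd two_pos (hx ▸ orderOf_dvd_of_pow_eq_one h2)
    have := h.three_le_p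
    omega
  set t := g ^ (orderOf g / 2) with ht
  have hto : orderOf t = 2 := orderOf_pow_orderOf_div (orderOf_pos g).ne' hge
  have htN : t ∈ Subgroup.normalizer (Q : Set G) := Subgroup.pow_mem _ hgmem _
  have htt : t * t = 1 := by rw [← pow_two, ← hto, pow_orderOf_eq_one]
  let φ : Q →* Q :=
    { toFun := fun c => ⟨t * c * t⁻¹, (Subgroup.mem_normalizer_iff.1 htN c).1 c.2⟩
      map_one' := Subtype.ext (by simp)
      map_mul' := fun a b => Subtype.ext (by simp [mul_assoc]) }
  have hfpf : MonoidHom.FixedPointFree φ := by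
    intro c hc
    by_contra hc1
    have hc1' : (c : G) ≠ 1 := fun e => hc1 (Subtype.ext e)
    have hc' : t * c * t⁻¹ = (c : G) := congrArg Subtype.val hc
    exact h.hp2 (h.not_commute_p (hord c c.2 hc1')
      (show Commute (c : G) t from (mul_inv_eq_iff_eq_mul.1 hc').symm) Nat.prime_two hto).symm
  have hinvol : Function.Involutive φ := fun c => Subtype.ext (by
    show t * (t * c * t⁻¹) * t⁻¹ = (c : G)
    rw [inv_eq_of_mul_eq_one_right htt]
    calc t * (t * c * t) * t = (t * t) * c * (t * t) := by group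
      _ = _ := by rw [htt]; group)
  refine ⟨Q, hQc, fun c hc hc1 => ⟨hord c hc hc1, ?_⟩, t, htN, hto, fun c hc => ?_⟩
  · refine (Subgroup.eq_of_le_of_card_ge (fun d hd => ?_) ?_).symm
    · exact Subgroup.mem_centralizer_singleton_iff.2
        (congrArg Subtype.val (hfpf.commute_all_of_involutive hinvol ⟨d, hd⟩ ⟨c, hc⟩).eq)
    · rw [h.card_centralizer (hord c hc hc1), hQc]
  · exact congrArg Subtype.val (congrFun (hfpf.coe_eq_inv_of_involutive hinvol) ⟨c, hc⟩)

end NseParams

end CfsgLib.NSEPGL
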