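import Cfsg.Agent.Lib.AltGroups.ZassenhausField
import Cfsg.Agent.Lib.AltGroups.ZassenhausGram
import Cfsg.Agent.Lib.AltGroups.MoebiusRecognition

/-!
A sharply three transitive situation with an inverted two-point stabiliser is `PGL₂`.
-/

set_option autoImplicit false
set_option linter.unusedSectionVars false
set_option linter.style.haveILetI false

open MulAction CfsgLib.AltGroups

namespace CfsgLib.NSEPGL

universe u v w

/-- `PGL₂` from coordinates, a two-point stabiliser of order `q - 1` inverted by a swapper fixing the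
unit point. -/
theorem pgl_of_inverted {G : Type u} {Ω : Type v} {A : Type w} [Group G] [Finite G] [MulAction G Ω]
    [FaithfulSMul G Ω] [AddCommGroup A] [Finite A] {q : ℕ} (C : ZCoord G Ω A) (hA : Nat.card A = q)
    (hH : Nat.card C.H + 1 = q)
    (h3 : ∀ g : G, ∀ a b c : Ω, a ≠ b → b ≠ c → a ≠ c → g • a = a → g • b = b → g • c = c → g = 1)
    (hG : Nat.card G = q * (q ^ 2 - 1)) (e : A) (he : e ≠ 0) (s : G) (hss : s * s = 1)
    (hso : s • C.o = C.inf) (hse : s • C.pt e = C.pt e)
    (hinv : ∀ h : C.H, s * (h : G) * s = (h : G)⁻¹) :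
    ∃ (K : Type) (_ : Field K) (_ : Fintype K), Fintype.card K = q ∧
      Nonempty (G ≃* Matrix.ProjGenLinGroup (Fin 2) K) := by
  classical
  haveI := Fintype.ofFinite C.H
  obtain ⟨W, rfl⟩ := C.exists_swapData hss hso
  have hSe : W.S e = e := C.pt_injective (by rw [W.S_pt e he, hse])
  have hcomm : ∀ h k : C.H, h * k = k * h := fun h k => by
    apply Subtype.ext
    have h1 := hinv (h * k)
    rw [Subgroup.coe_mul, mul_inv_rev, ← hinv h, ← hinv k] at h1
    have h2 : W.s * ((h : G) * k) * W.s = W.s * ((k : G) * h) * W.s := by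
      rw [h1]
      calc W.s * (k : G) * W.s * (W.s * (h : G) * W.s)
          = W.s * (k : G) * (W.s * W.s) * h * W.s := by group
        _ = _ := by rw [W.sq]; group
    exact mul_left_cancel (mul_right_cancel h2)
  obtain ⟨K, instK, instKf, φ, μ, hμ, hφ1, hφ⟩ := C.exists_field h3 hcomm
    (C.irreducible_of_large h3 (by omega)) e he
  have hK : Fintype.card K = q := by
    rw [← Nat.card_eq_fintype_card, Nat.card_congr φ.toEquiv, hA]
  have hμsurj : ∀ y : K, y ≠ 0 → ∃ h, (μ h : K) = y := by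
    have hb : Function.Bijective μ := (Fintype.bijective_iff_injective_and_card μ).mpr
      ⟨hμ, by rw [← Nat.card_eq_fintype_card, Fintype.card_units, hK]; omega⟩
    intro y hy
    obtain ⟨h, hh⟩ := hb.2 (Units.mk0 y hy)
    exact ⟨h, by rw [hh]; rfl⟩
  have hφne : ∀ {y : K}, y ≠ 0 → φ y ≠ 0 := fun {y} hy h => hy (φ.injective (by rw [h, map_zero]))
  have hS : ∀ y : K, y ≠ 0 → W.S (φ y) = φ y⁻¹ := by
    intro y hy
    obtain ⟨h, rfl⟩ := hμsurj y hy
    rw [show φ (μ h : K) = C.act h e by rw [← hφ1, hφ, mul_one], W.S_act h he, hSe,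
      show (⟨W.s * (h : G) * W.s, W.conj_mem h.2⟩ : C.H) = h⁻¹ from Subtype.ext (hinv h),
      ← hφ1, hφ, map_inv, Units.val_inv_eq_inv_val, mul_one]
  let eΩ : OnePoint K ≃ Ω := Equiv.ofBijective
      (fun z => OnePoint.elim z C.inf (fun k => C.pt (φ k))) ⟨by
    intro z z' hzz
    cases z <;> cases z'
    · rfl
    · exact absurd hzz.symm (C.pt_ne_inf _)
    · exact absurd hzz (C.pt_ne_inf _)
    · exact congrArg _ (φ.injective (C.pt_injective hzz)), by
    intro y
    by_cases hy : y = C.inf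
    · exact ⟨OnePoint.infty, hy.symm⟩
    · obtain ⟨a, ha⟩ := C.exists_pt hy
      exact ⟨((φ.symm a : K) : OnePoint K), by simp [ha]⟩⟩
  have hei : eΩ OnePoint.infty = C.inf := rfl
  have hek : ∀ k : K, eΩ (k : OnePoint K) = C.pt (φ k) := fun k => rfl
  let P : G → Prop := fun g =>
    ∃ M : Matrix.GeneralLinearGroup (Fin 2) K, ∀ z, g • eΩ z = eΩ (moebiusHom _ M z)
  have hPmul : ∀ g g', P g → P g' → P (g * g') := by
    rintro g g' ⟨M, hM⟩ ⟨M', hM'⟩
    exact ⟨M * M', fun z => by rw [mul_smul, hM', hM, map_mul, Equiv.Perm.mul_apply]⟩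
  have hPτ : ∀ a, P (C.τ a) := by
    intro a
    refine ⟨mkGL 1 (φ.symm a) 0 1 (by simp), fun z => ?_⟩
    cases z with
    | infty => rw [mkGL_apply_infty, hei, C.τ_inf]; simp [hei]
    | coe k => rw [mkGL_apply_coe, hek, C.τ_pt]; simp [hek, add_comm]
  have hPH : ∀ k : C.H, P k := by
    intro k
    refine ⟨mkGL (μ k : K) 0 0 1 (by simp), fun z => ?_⟩
    cases z with
    | infty => rw [mkGL_apply_infty, hei, C.smul_inf k.2]; simp [hei]
    | coe y => rw [mkGL_apply_coe, hek, C.act_pt, hφ]; simp [hek]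
  have hPs : P W.s := by
    refine ⟨mkGL 0 1 1 0 (by simp), fun z => ?_⟩
    cases z with
    | infty => rw [mkGL_apply_infty, hei, W.s_inf]; simp [hek]
    | coe y =>
      rw [mkGL_apply_coe, hek]
      by_cases hy : y = 0
      · subst hy; simp [W.s_o, hei]
      · rw [← W.S_pt _ (hφne hy), hS y hy]; simp [hek, hy]
  have hPall : ∀ g : G, P g := by
    have hfix : ∀ g : G, g • C.inf = C.inf → P g := by
      intro g hg
      obtain ⟨a, h, rfl⟩ := C.exists_decomp hg
      exact hPmul _ _ (hPτ a) (hPH h)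
    intro g
    by_cases hg : g • C.inf = C.inf
    · exact hfix g hg
    · obtain ⟨a, ha⟩ := C.exists_pt hg
      have hm : (W.s * (C.τ a)⁻¹ * g) • C.inf = C.inf := by
        rw [mul_smul, mul_smul, ← ha, ← C.τ_smul_o, inv_smul_smul, W.s_o]
      have := hPmul _ _ (hPmul _ _ (hPτ a) hPs) (hfix _ hm)
      rwa [mul_assoc W.s, mul_assoc (C.τ a), ← mul_assoc W.s W.s, W.sq, one_mul, mul_inv_cancel_left] at this
  exact ⟨K, instK, instKf, hK, nonempty_mulEquiv_PGL eΩ hPall (by rw [hG, hK])⟩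

end CfsgLib.NSEPGL
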