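import Cfsg.Agent.Lib.NSEPGL.Counting
import Cfsg.Agent.Lib.NSEPGL.Inverted

/-!
The action on the Sylow subgroups and the recognition of `PGL₂`.
-/

set_option autoImplicit false
set_option linter.unusedSectionVars false
set_option linter.style.haveILetI false

open Finset MulAction CfsgLib.Spectrum

namespace CfsgLib.NSEPGL

variable {G : Type*} [Group G] [Finite G] {p f q r : ℕ}

/-- A point different from two given ones. -/
theorem exists_pair_ne_of_card {α : Type*} [Fintype α] [DecidableEq α] (h : 2 < Fintype.card α) (a b : α) :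
    ∃ z, z ≠ a ∧ z ≠ b := by
  obtain ⟨z, hz⟩ : ((univ.erase a).erase b).Nonempty := by
    rw [← Finset.card_pos]
    have h1 := Finset.pred_card_le_card_erase (s := univ.erase a) (a := b)
    rw [Finset.card_erase_of_mem (Finset.mem_univ a), Finset.card_univ] at h1
    omega
  simp only [Finset.mem_erase, Finset.mem_univ, and_true] at hz
  exact ⟨z, hz.2, hz.1⟩

/-- An involution of the normaliser inverts the abelian Sylow subgroup. -/
theorem NseParams.inverts (h : NseParams G p f q r) {Q : Subgroup G}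
    (hQ : ∀ c ∈ Q, c ≠ 1 → orderOf c = p) {t : G} (ht : t ∈ Subgroup.normalizer (Q : Set G))
    (hto : orderOf t = 2) : ∀ c ∈ Q, t * c * t⁻¹ = c⁻¹ := by
  have htt : t * t = 1 := by rw [← pow_two, ← hto, pow_orderOf_eq_one]
  let φ : Q →* Q :=
    { toFun := fun c => ⟨t * c * t⁻¹, (Subgroup.mem_normalizer_iff.1 ht c).1 c.2⟩
      map_one' := Subtype.ext (by simp)
      map_mul' := fun a b => Subtype.ext (by simp [mul_assoc]) }
  have hfpf : MonoidHom.FixedPointFree φ := by
    intro c hc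
    by_contra hc1
    have hc1' : (c : G) ≠ 1 := fun e => hc1 (Subtype.ext e)
    have hc' : t * c * t⁻¹ = (c : G) := congrArg Subtype.val hc
    exact h.hp2 (h.not_commute_p (hQ c c.2 hc1')
      (show Commute (c : G) t from (mul_inv_eq_iff_eq_mul.1 hc').symm) Nat.prime_two hto).symm
  have hinvol : Function.Involutive φ := fun c => Subtype.ext (by
    show t * (t * c * t⁻¹) * t⁻¹ = (c : G)
    rw [inv_eq_of_mul_eq_one_right htt]
    calc t * (t * c * t) * t = (t * t) * c * (t * t) := by group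
      _ = _ := by rw [htt]; group)
  exact fun c hc => congrArg Subtype.val (congrFun (hfpf.coe_eq_inv_of_involutive hinvol) ⟨c, hc⟩)

/-- The recognition. -/
theorem NseParams.exists_iso (h : NseParams G p f q r) :
    ∃ (K : Type) (_ : Field K) (_ : Fintype K), Fintype.card K = q ∧
      Nonempty (G ≃* Matrix.ProjGenLinGroup (Fin 2) K) := by
  classical
  haveI := Fintype.ofFinite G
  obtain ⟨Q, hQc, hQp, t₀, ht₀N, ht₀, hinv₀⟩ := h.exists_sylow
  have hQC : ∀ c ∈ Q, c ≠ 1 → Subgroup.centralizer ({c} : Set G) = Q := fun c hc hc1 => (hQp c hc hc1).2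
  obtain ⟨c, rfl⟩ : ∃ c, q = c + 1 := ⟨q - 1, by have := h.q_ge; omega⟩
  have hc2 : 2 ≤ c := by have := h.q_ge; omega
  have hr : r = c * (c + 2) := by
    have e : (c + 1) * (c + 1) = c * (c + 2) + 1 := by ring
    have := h.hr
    omega
  haveI : Nontrivial Q := Finite.one_lt_card_iff_nontrivial.1 (by omega)
  obtain ⟨⟨x, hxQ⟩, hx1⟩ := exists_ne (1 : Q)
  have hx1' : x ≠ 1 := fun e => hx1 (Subtype.ext e)
  set N := Subgroup.normalizer (Q : Set G) with hNd
  have hQN : Q ≤ N := Subgroup.le_normalizer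
  -- the index
  let φ : (G ⧸ N) × {d : Q // d ≠ 1} → {g : G // orderOf g = p} := fun z =>
    ⟨z.1.out * (z.2.1 : G) * z.1.out⁻¹, (MulEquiv.orderOf_eq (MulAut.conj z.1.out) _).trans
      (hQp _ z.2.1.2 (fun e => z.2.2 (Subtype.ext e))).1⟩
  have hφ : Function.Bijective φ := by
    constructor
    · rintro ⟨a, d₁⟩ ⟨b, d⟩ hab'
      have h' : a.out * (d₁.1 : G) * a.out⁻¹ = b.out * (d.1 : G) * b.out⁻¹ := congrArg Subtype.val hab'
      have he : (b.out⁻¹ * a.out) * (d₁.1 : G) * (b.out⁻¹ * a.out)⁻¹ = (d.1 : G) := by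
        calc (b.out⁻¹ * a.out) * (d₁.1 : G) * (b.out⁻¹ * a.out)⁻¹
            = b.out⁻¹ * (a.out * (d₁.1 : G) * a.out⁻¹) * b.out := by group
          _ = _ := by rw [h']; group
      have hab : b = a := by
        rw [← QuotientGroup.out_eq' a, ← QuotientGroup.out_eq' b]
        refine QuotientGroup.eq.2 ?_
        show _ ∈ Subgroup.normalizer (Q : Set G)
        rw [Subgroup.mem_normalizer_iff]
        intro w
        have hc' := hQC _ d₁.1.2 (fun e => d₁.2 (Subtype.ext e))
        have hd' := hQC _ d.1.2 (fun e => d.2 (Subtype.ext e))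
        conv_lhs => rw [← hc']
        conv_rhs => rw [← hd']
        rw [Subgroup.mem_centralizer_singleton_iff, Subgroup.mem_centralizer_singleton_iff, ← he]
        generalize b.out⁻¹ * a.out = g
        rw [show g * w * g⁻¹ * (g * (d₁.1 : G) * g⁻¹) = g * (w * d₁.1) * g⁻¹ by group,
          show g * (d₁.1 : G) * g⁻¹ * (g * w * g⁻¹) = g * (d₁.1 * w) * g⁻¹ by group]
        exact ⟨fun e => by rw [e], fun e => mul_left_cancel (mul_right_cancel e)⟩
      subst hab
      refine Prod.ext rfl (Subtype.ext (Subtype.ext ?_))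
      exact mul_left_cancel (mul_right_cancel h')
    · rintro ⟨u, hu⟩
      obtain ⟨g, hg⟩ := h.exists_conj (hQp x hxQ hx1').1 hu
      have hu1 : u ≠ 1 := fun e => by rw [e, orderOf_one] at hu; exact h.hp.one_lt.ne hu
      have huQ : g⁻¹ * u * g ∈ Q := by
        rw [← hg, show g⁻¹ * (g * x * g⁻¹) * g = x by group]
        exact hxQ
      obtain ⟨n, hn⟩ := QuotientGroup.mk_out_eq_mul N g
      have hc' : ((g : G ⧸ N).out)⁻¹ * u * (g : G ⧸ N).out ∈ Q := by
        rw [hn, show (g * (n : G))⁻¹ * u * (g * (n : G)) = (n : G)⁻¹ * (g⁻¹ * u * g) * (n : G) by group]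
        exact (Subgroup.mem_normalizer_iff''.1 n.2 _).1 huQ
      refine ⟨(g, ⟨⟨_, hc'⟩, fun e => hu1 ?_⟩), Subtype.ext ?_⟩
      · have e' : ((g : G ⧸ N).out)⁻¹ * u * (g : G ⧸ N).out = 1 := congrArg Subtype.val e
        simpa using conj_eq_one_iff.1 (show ((g : G ⧸ N).out)⁻¹ * u * ((g : G ⧸ N).out)⁻¹⁻¹ = 1 by
          rw [inv_inv]; exact e')
      · show (g : G ⧸ N).out * (((g : G ⧸ N).out)⁻¹ * u * (g : G ⧸ N).out) * ((g : G ⧸ N).out)⁻¹ = u
        group
  have hidx : N.index = c + 2 := by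
    have h1 := Nat.card_congr (Equiv.ofBijective φ hφ)
    rw [Nat.card_prod, ← Subgroup.index_eq_card] at h1
    change _ = orderCount G p at h1
    haveI := Fintype.ofFinite Q
    rw [h.count_p, Nat.card_eq_fintype_card (α := {d : Q // d ≠ 1}), Fintype.card_subtype_compl,
      Fintype.card_subtype_eq, ← Nat.card_eq_fintype_card, hQc, Nat.add_sub_cancel, hr,
      mul_comm c] at h1
    exact Nat.eq_of_mul_eq_mul_right (show 0 < c by omega) h1
  have hcN : Nat.card N = (c + 1) * c := by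
    have h1 := N.card_mul_index
    rw [hidx, h.hG, hr] at h1
    exact Nat.eq_of_mul_eq_mul_right (show 0 < c + 2 by omega) (h1.trans (by ring))
  have hco : Nat.Coprime c (c + 1) := by simp
  have hQmem : ∀ y ∈ N, orderOf y ∣ c + 1 → y ∈ Q := by
    intro y hy hd
    have hrel : (Q.subgroupOf N).index = c := by
      have := (Q.subgroupOf N).card_mul_index
      rw [Nat.card_congr (Subgroup.subgroupOfEquivOfLe hQN).toEquiv, hcN, hQc] at this
      exact Nat.eq_of_mul_eq_mul_left (by omega) this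
    haveI : (Q.subgroupOf N).Normal := Subgroup.normal_in_normalizer
    have hp : (⟨y, hy⟩ : N) ^ c ∈ Q.subgroupOf N := hrel ▸ Subgroup.pow_index_mem _ _
    obtain ⟨i, hi⟩ := exists_pow_eq_self_of_coprime (x := y) (Nat.Coprime.coprime_dvd_right hd hco)
    rw [← hi]
    exact Q.pow_mem hp i
  -- the action
  haveI : Fintype (G ⧸ N) := Fintype.ofFinite _
  set x0 : G ⧸ N := QuotientGroup.mk 1 with hx0
  have hstab : stabilizer G x0 = N := by rw [hx0]; exact MulAction.stabilizer_quotient N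
  have hcardΩ : Fintype.card (G ⧸ N) = c + 2 := by
    rw [← Nat.card_eq_fintype_card]; exact hidx
  have hQfix : ∀ u ∈ Q, u • x0 = x0 := fun u hu => by
    rw [← mem_stabilizer_iff, hstab]; exact hQN hu
  have hsemi : ∀ u ∈ Q, ∀ y : G ⧸ N, y ≠ x0 → u • y = y → u = 1 := by
    intro u hu y hy hfix
    by_contra hu1
    induction y using QuotientGroup.induction_on with
    | H g =>
      have hgN : g⁻¹ * u * g ∈ N := by
        have := QuotientGroup.eq.1 hfix.symm
        simpa [mul_assoc] using this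
      have hd : orderOf (g⁻¹ * u * g) ∣ c + 1 := by
        have e : orderOf (g⁻¹ * u * g) = orderOf u := by
          rw [← MulEquiv.orderOf_eq (MulAut.conj g⁻¹) u]
          simp
        rw [e, ← hQc]
        exact Subgroup.orderOf_dvd_natCard Q hu
      have hv := hQmem _ hgN hd
      have hv1 : g⁻¹ * u * g ≠ 1 := fun h => hu1 (by
        have := congrArg (fun z => g * z * g⁻¹) h
        simpa [mul_assoc] using this)
      refine hy (QuotientGroup.eq.2 ?_)
      rw [mul_one]
      refine N.inv_mem ?_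
      rw [hNd, Subgroup.mem_normalizer_iff]
      intro z
      have key : ∀ w, w ∈ Q ↔ w * u = u * w := fun w => by
        conv_lhs => rw [← hQC u hu hu1]
        rw [Subgroup.mem_centralizer_singleton_iff]
      have key' : ∀ w, w ∈ Q ↔ w * (g⁻¹ * u * g) = g⁻¹ * u * g * w := fun w => by
        conv_lhs => rw [← hQC _ hv hv1]
        rw [Subgroup.mem_centralizer_singleton_iff]
      rw [key', key]
      constructor <;> intro h
      · have := congrArg (fun w => g * w * g⁻¹) h
        simpa [mul_assoc] using this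
      · have := congrArg (fun w => g⁻¹ * w * g) h
        simpa [mul_assoc] using this
  have hQne : ∀ u ∈ Q, ∀ y : G ⧸ N, y ≠ x0 → u • y ≠ x0 := by
    intro u hu y hy h
    exact hy (MulAction.injective u (h.trans (hQfix u hu).symm))
  have hreg : ∀ y z : G ⧸ N, y ≠ x0 → z ≠ x0 → ∃! u : Q, (u : G) • y = z := by
    intro y z hy hz
    let F : Q → {w : G ⧸ N // w ≠ x0} := fun u => ⟨(u : G) • y, hQne u u.2 y hy⟩
    have hinj : Function.Injective F := by
      intro a b hab
      have h' : (a : G) • y = (b : G) • y := congrArg Subtype.val hab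
      have := hsemi ((b : G)⁻¹ * a) (Q.mul_mem (Q.inv_mem b.2) a.2) y hy (by
        rw [mul_smul, h', inv_smul_smul])
      exact Subtype.ext (inv_mul_eq_one.1 this).symm
    haveI := Fintype.ofFinite Q
    have hbij : Function.Bijective F := by
      refine (Fintype.bijective_iff_injective_and_card F).2 ⟨hinj, ?_⟩
      rw [Fintype.card_subtype_compl, Fintype.card_subtype_eq, hcardΩ, ← Nat.card_eq_fintype_card, hQc]
      omega
    obtain ⟨u, hu⟩ := hbij.2 ⟨z, hz⟩
    exact ⟨u, congrArg Subtype.val hu, fun v hv => hinj (by rw [hu]; exact Subtype.ext hv)⟩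
  have hN_fix : ∀ g ∈ N, ∀ y1 y2 : G ⧸ N, y1 ≠ x0 → y2 ≠ x0 → y1 ≠ y2 →
      g • y1 = y1 → g • y2 = y2 → g = 1 := by
    intro g hg y1 y2 h1 h2 h12 f1 f2
    obtain ⟨u, hu, -⟩ := hreg y1 y2 h1 h2
    have hu1 : (u : G) ≠ 1 := fun h => h12 (by rw [← hu, h, one_smul])
    have hgug : g * u * g⁻¹ ∈ Q := (Subgroup.mem_normalizer_iff.1 hg u).1 u.2
    have e : (g * u * g⁻¹) • y1 = y2 := by
      rw [mul_smul, mul_smul, inv_smul_eq_iff.2 f1.symm, hu, f2]
    have heq : g * u * g⁻¹ = u := congrArg Subtype.val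
      ((hreg y1 y2 h1 h2).unique (y₁ := ⟨_, hgug⟩) (y₂ := u) e hu)
    have hgQ : g ∈ Q := by
      rw [← hQC u u.2 hu1, Subgroup.mem_centralizer_singleton_iff]
      exact mul_inv_eq_iff_eq_mul.1 heq
    exact hsemi g hgQ y1 h1 f1
  have h3 : ∀ g : G, ∀ a b d : G ⧸ N, a ≠ b → b ≠ d → a ≠ d →
      g • a = a → g • b = b → g • d = d → g = 1 := by
    intro g a b d hab hbd had fa fb fd
    obtain ⟨k, hk⟩ := exists_smul_eq G a x0
    have hconj : ∀ y : G ⧸ N, g • y = y → (k * g * k⁻¹) • (k • y) = k • y := fun y hy => by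
      rw [mul_smul, inv_smul_smul, mul_smul, hy]
    have := hN_fix (k * g * k⁻¹) (by rw [← hstab, mem_stabilizer_iff, ← hk]; exact hconj a fa)
      (k • b) (k • d) (fun h => hab (MulAction.injective k (hk.trans h.symm)))
      (fun h => had (MulAction.injective k (hk.trans h.symm)))
      (fun h => hbd (MulAction.injective k h)) (hconj b fb) (hconj d fd)
    exact conj_eq_one_iff.1 this
  have hfaith : FaithfulSMul G (G ⧸ N) := by
    refine ⟨fun {g g'} hgg => ?_⟩
    obtain ⟨a, b, d, hab, had, hbd⟩ := Fintype.two_lt_card_iff.1 (show 2 < Fintype.card (G ⧸ N) by omega)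
    exact (inv_mul_eq_one.1 (h3 (g'⁻¹ * g) a b d hab hbd had
      (by rw [mul_smul, hgg, inv_smul_smul]) (by rw [mul_smul, hgg, inv_smul_smul])
      (by rw [mul_smul, hgg, inv_smul_smul]))).symm
  -- the involutions
  set J := univ.filter fun t : G => orderOf t = 2 with hJ
  have hJc : #J = (c + 1) * (c + 1) := by
    rw [← h.count_two, orderCount, Nat.card_eq_fintype_card, Fintype.card_subtype]
  have hJsq : ∀ t ∈ J, t * t = 1 := fun t ht => by
    rw [← pow_two, ← (Finset.mem_filter.1 ht).2, pow_orderOf_eq_one]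
  have hJfix : #(J.filter fun t => t • x0 = x0) = c + 1 := by
    haveI := Fintype.ofFinite Q
    rw [← hQc, Nat.card_eq_fintype_card, ← Finset.card_univ (α := Q)]
    symm
    refine Finset.card_bij (fun u _ => t₀ * (u : G)) (fun u _ => ?_) (fun a _ b _ e => ?_) fun t ht => ?_
    · have htu : t₀ * (u : G) ∈ N := N.mul_mem ht₀N (hQN u.2)
      refine Finset.mem_filter.2 ⟨Finset.mem_filter.2 ⟨Finset.mem_univ _, orderOf_eq_prime ?_ fun e => ?_⟩,
        by rw [← mem_stabilizer_iff, hstab]; exact htu⟩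
      · rw [pow_two]
        calc t₀ * u * (t₀ * u) = (t₀ * u * t₀⁻¹) * (t₀ * t₀) * u := by group
          _ = _ := by rw [hinv₀ u u.2, ← pow_two t₀, ← ht₀, pow_orderOf_eq_one]; group
      · have htQ : t₀ ∈ Q := by rw [eq_inv_of_mul_eq_one_left e]; exact Q.inv_mem u.2
        have := (hQp t₀ htQ (fun e' => by rw [e', orderOf_one] at ht₀; omega)).1
        rw [ht₀] at this
        exact h.hp2 this.symm
    · exact Subtype.ext (mul_left_cancel e)
    · obtain ⟨htJ, htx⟩ := Finset.mem_filter.1 ht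
      have hto := (Finset.mem_filter.1 htJ).2
      have htN : t ∈ N := by rw [← hstab]; exact htx
      have hi := h.inverts (Q := Q) (fun d hd hd1 => (hQp d hd hd1).1) htN hto
      have hmem : t₀⁻¹ * t ∈ Q := by
        rw [← hQC x hxQ hx1', Subgroup.mem_centralizer_singleton_iff, ← mul_inv_eq_iff_eq_mul]
        calc t₀⁻¹ * t * x * (t₀⁻¹ * t)⁻¹ = t₀⁻¹ * (t * x * t⁻¹) * t₀ := by group
          _ = t₀⁻¹ * x⁻¹ * t₀ := by rw [hi x hxQ]
          _ = t₀⁻¹ * (t₀ * x * t₀⁻¹) * t₀ := by rw [hinv₀ x hxQ]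
          _ = x := by group
      exact ⟨⟨_, hmem⟩, Finset.mem_univ _, by simp⟩
  have hfib : ∀ y ∈ (univ.erase x0), #((J.filter fun t => ¬ t • x0 = x0).filter fun t => t • x0 = y) ≤ c := by
    intro y hy
    have hy0 := Finset.ne_of_mem_erase hy
    obtain ⟨z, hzx, hzy⟩ : ∃ z : G ⧸ N, z ≠ x0 ∧ z ≠ y :=
      exists_pair_ne_of_card (by omega : 2 < Fintype.card (G ⧸ N)) x0 y
    have hsub : #((univ.erase x0).erase y) = c := by
      rw [Finset.card_erase_of_mem hy, Finset.card_erase_of_mem (Finset.mem_univ x0), Finset.card_univ, hcardΩ]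
      omega
    rw [← hsub]
    refine Finset.card_le_card_of_injOn (fun t => t • z) (fun t ht => ?_) (fun t ht t' ht' e => ?_)
    · simp only [Finset.mem_coe, Finset.mem_filter] at ht
      obtain ⟨⟨htJ, -⟩, htx⟩ := ht
      have hty : t • y = x0 := by rw [← htx, smul_smul, hJsq t htJ, one_smul]
      simp only [Finset.mem_coe, Finset.mem_erase, Finset.mem_univ, and_true, ne_eq]
      exact ⟨fun e => hzx (MulAction.injective t (e.trans htx.symm)),
        fun e => hzy (MulAction.injective t (e.trans hty.symm))⟩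
    · simp only [Finset.mem_coe, Finset.mem_filter] at ht ht'
      obtain ⟨⟨htJ, -⟩, htx⟩ := ht
      obtain ⟨⟨htJ', -⟩, htx'⟩ := ht'
      have hty : t • y = x0 := by rw [← htx, smul_smul, hJsq t htJ, one_smul]
      have hty' : t' • y = x0 := by rw [← htx', smul_smul, hJsq t' htJ', one_smul]
      exact (inv_mul_eq_one.1 (h3 (t'⁻¹ * t) x0 y z hy0.symm hzy.symm hzx.symm
        (by rw [mul_smul, htx, ← htx', inv_smul_smul]) (by rw [mul_smul, hty, ← hty', inv_smul_smul])
        (by rw [mul_smul, show t • z = t' • z from e, inv_smul_smul]))).symm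
  have hJmov : #(J.filter fun t => ¬ t • x0 = x0) = (c + 1) * c := by
    have h1 := Finset.card_filter_add_card_filter_not (s := J) (fun t => t • x0 = x0)
    have h2 : (c + 1) * (c + 1) = (c + 1) * c + (c + 1) := by ring
    omega
  have heq := Finset.card_eq_sum_card_fiberwise (s := J.filter fun t => ¬ t • x0 = x0)
    (f := fun t => t • x0) (t := univ.erase x0)
    (fun t ht => Finset.mem_coe.2 (Finset.mem_erase.2
      ⟨(Finset.mem_filter.1 (Finset.mem_coe.1 ht)).2, Finset.mem_univ _⟩))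
  rw [hJmov] at heq
  have hall := (Finset.sum_eq_sum_iff_of_le hfib).1 (heq.symm.trans (by
    rw [Finset.sum_const, Finset.card_erase_of_mem (Finset.mem_univ x0), Finset.card_univ, hcardΩ, smul_eq_mul]
    congr 1))
  obtain ⟨y0, hy0⟩ : ∃ y : G ⧸ N, y ≠ x0 := Fintype.exists_ne_of_one_lt_card (by omega) x0
  set W := (J.filter fun t => ¬ t • x0 = x0).filter fun t => t • x0 = y0 with hW
  have hWc : #W = c := hall y0 (Finset.mem_erase.2 ⟨hy0, Finset.mem_univ _⟩)
  have hWy : ∀ t ∈ W, t • y0 = x0 ∧ t • x0 = y0 ∧ t * t = 1 := fun t ht => by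
    obtain ⟨ht', htx⟩ := Finset.mem_filter.1 ht
    have hsq := hJsq t (Finset.mem_filter.1 ht').1
    exact ⟨by rw [← htx, smul_smul, hsq, one_smul], htx, hsq⟩
  obtain ⟨z0, hzx, hzy⟩ : ∃ z : G ⧸ N, z ≠ x0 ∧ z ≠ y0 :=
    exists_pair_ne_of_card (by omega : 2 < Fintype.card (G ⧸ N)) x0 y0
  have hsurj : ∀ w : G ⧸ N, w ≠ x0 → w ≠ y0 → ∃ t ∈ W, t • z0 = w := by
    intro w hw hw'
    have himg : W.image (fun t => t • z0) = (univ.erase x0).erase y0 := by
      refine Finset.eq_of_subset_of_card_le (fun v hv => ?_) ?_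
      · obtain ⟨t, ht, rfl⟩ := Finset.mem_image.1 hv
        obtain ⟨hty, htx, -⟩ := hWy t ht
        simp only [Finset.mem_erase, Finset.mem_univ, and_true, ne_eq]
        exact ⟨fun e => hzx (MulAction.injective t (e.trans htx.symm)),
          fun e => hzy (MulAction.injective t (e.trans hty.symm))⟩
      · rw [Finset.card_erase_of_mem (Finset.mem_erase.2 ⟨hy0, Finset.mem_univ _⟩),
          Finset.card_erase_of_mem (Finset.mem_univ x0), Finset.card_univ, hcardΩ,
          Finset.card_image_of_injOn (fun t ht t' ht' e => ?_), hWc]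
        · omega
        obtain ⟨hty, htx, -⟩ := hWy t (Finset.mem_coe.1 ht)
        obtain ⟨hty', htx', -⟩ := hWy t' (Finset.mem_coe.1 ht')
        exact (inv_mul_eq_one.1 (h3 (t'⁻¹ * t) x0 y0 z0 hy0.symm hzy.symm hzx.symm
          (by rw [mul_smul, htx, ← htx', inv_smul_smul]) (by rw [mul_smul, hty, ← hty', inv_smul_smul])
          (by rw [mul_smul, show t • z0 = t' • z0 from e, inv_smul_smul]))).symm
    have hmem : w ∈ W.image (fun t => t • z0) := by
      rw [himg]; simp [hw, hw']
    obtain ⟨t, ht, e⟩ := Finset.mem_image.1 hmem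
    exact ⟨t, ht, e⟩
  obtain ⟨s, hsW, hsz⟩ := hsurj z0 hzx hzy
  obtain ⟨hsy, hsx, hss⟩ := hWy s hsW
  have hQab : IsMulCommutative Q := ⟨⟨fun a b => by
    by_cases ha : (a : G) = 1
    · apply Subtype.ext; simp [ha]
    · have : (b : G) ∈ Subgroup.centralizer ({(a : G)} : Set G) := by rw [hQC a a.2 ha]; exact b.2
      exact Subtype.ext (Subgroup.mem_centralizer_singleton_iff.1 this).symm⟩⟩
  obtain ⟨A, instA, C, hinf, ho, hτ⟩ := AltGroups.exists_zcoord hy0 Q (by rw [hstab]; exact hQN)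
    (by rw [hstab]; exact Subgroup.normal_in_normalizer) hQab hreg
  haveI : Finite A := Finite.of_injective C.pt C.pt_injective
  have hA : Nat.card A = c + 1 := by
    have := C.card_eq_finite
    rw [Nat.card_eq_fintype_card (α := G ⧸ N), hcardΩ] at this
    omega
  have hHmem : ∀ g : G, g ∈ C.H ↔ g • x0 = x0 ∧ g • y0 = y0 := fun g => by
    rw [C.mem_H, hinf, ho]
  have hH : Nat.card C.H + 1 = c + 1 := by
    have hbij : Function.Bijective (fun k : C.H => (⟨s * k, ?_⟩ : W)) := ?_
    · rw [Nat.card_congr (Equiv.ofBijective _ hbij), Nat.card_eq_fintype_card, Fintype.card_coe, hWc]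
    · obtain ⟨k1, k2⟩ := (hHmem k).1 k.2
      have ex : (s * (k : G)) • x0 = y0 := by rw [mul_smul, k1, hsx]
      have ey : (s * (k : G)) • y0 = x0 := by rw [mul_smul, k2, hsy]
      have hw1 : (s * (k : G)) • z0 ≠ x0 := fun e => hzy (MulAction.injective _ (e.trans ey.symm))
      have hw2 : (s * (k : G)) • z0 ≠ y0 := fun e => hzx (MulAction.injective _ (e.trans ex.symm))
      obtain ⟨t, htW, htz⟩ := hsurj _ hw1 hw2
      obtain ⟨hty, htx, -⟩ := hWy t htW
      rwa [← inv_mul_eq_one.1 (h3 (t⁻¹ * (s * k)) x0 y0 z0 hy0.symm hzy.symm hzx.symm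
        (by rw [mul_smul, ex, ← htx, inv_smul_smul]) (by rw [mul_smul, ey, ← hty, inv_smul_smul])
        (by rw [mul_smul, ← htz, inv_smul_smul]))]
    · refine ⟨fun a b e => Subtype.ext (mul_left_cancel (congrArg Subtype.val e)), fun t => ?_⟩
      obtain ⟨hty, htx, -⟩ := hWy t t.2
      exact ⟨⟨s * t, (hHmem _).2 ⟨by rw [mul_smul, htx, hsy], by rw [mul_smul, hty, hsx]⟩⟩,
        Subtype.ext (by show s * (s * (t : G)) = t; rw [← mul_assoc, hss, one_mul])⟩
  obtain ⟨e, he⟩ := C.exists_pt (y := z0) (by rw [hinf]; exact hzx)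
  have he0 : e ≠ 0 := fun e0 => hzy (by rw [← he, e0, C.pt_zero, ho])
  refine pgl_of_inverted C hA hH h3 ?_ e he0 s hss (by rw [hinf, ho]; exact hsy) (by rw [he]; exact hsz) fun k => ?_
  · rw [h.hG, hr, show (c + 1) ^ 2 = c * (c + 2) + 1 by ring, Nat.add_sub_cancel]
  · obtain ⟨k1, k2⟩ := (hHmem k).1 k.2
    have ex : (s * (k : G)) • x0 = y0 := by rw [mul_smul, k1, hsx]
    have ey : (s * (k : G)) • y0 = x0 := by rw [mul_smul, k2, hsy]
    obtain ⟨t, htW, htz⟩ := hsurj ((s * (k : G)) • z0)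
      (fun e => hzy (MulAction.injective _ (e.trans ey.symm)))
      (fun e => hzx (MulAction.injective _ (e.trans ex.symm)))
    obtain ⟨hty, htx, htt⟩ := hWy t htW
    have hts : t = s * (k : G) := inv_mul_eq_one.1 (h3 (t⁻¹ * (s * k)) x0 y0 z0 hy0.symm hzy.symm hzx.symm
      (by rw [mul_smul, ex, ← htx, inv_smul_smul]) (by rw [mul_smul, ey, ← hty, inv_smul_smul])
      (by rw [mul_smul, ← htz, inv_smul_smul]))
    rw [hts] at htt
    refine eq_inv_of_mul_eq_one_left ?_
    calc s * (k : G) * s * k = s * k * (s * k) := by group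
      _ = 1 := htt

end CfsgLib.NSEPGL
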