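import Cfsg.Agent.Lib.AltGroups.MoebiusRecognition
import Cfsg.Agent.Lib.ClassSizesPSL.Counting
import Cfsg.Agent.Lib.Spectrum.NseBasics
import Mathlib.LinearAlgebra.Matrix.CharP

/-!
The element counts of `PGL₂(q)`, `q` odd.
-/

set_option autoImplicit false
set_option linter.unusedSectionVars false
set_option linter.style.haveILetI false

open Finset Matrix CfsgLib.Spectrum

namespace CfsgLib.NSEPGL

variable {F : Type*} [Field F] [Fintype F]

local notation "M₂" => Matrix (Fin 2) (Fin 2) F
local notation "GL₂" => Matrix.GeneralLinearGroup (Fin 2) F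
local notation "PG" => (Matrix.GeneralLinearGroup (Fin 2) F) ⧸ Subgroup.center (Matrix.GeneralLinearGroup (Fin 2) F)

/-- The image in the projective group. -/
def pr : GL₂ →* PG := QuotientGroup.mk' _

theorem pr_surjective : Function.Surjective (pr (F := F)) := QuotientGroup.mk'_surjective _

/-- The discriminant of the characteristic polynomial. -/
def disc (A : M₂) : F := (A 0 0 - A 1 1) ^ 2 + 4 * (A 0 1 * A 1 0)

theorem pr_eq_one_iff (g : GL₂) : pr g = 1 ↔
    (g : M₂) 0 1 = 0 ∧ (g : M₂) 1 0 = 0 ∧ (g : M₂) 0 0 = (g : M₂) 1 1 := by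
  show QuotientGroup.mk' _ g = 1 ↔ _
  rw [QuotientGroup.mk'_apply, QuotientGroup.eq_one_iff, Matrix.GeneralLinearGroup.center_eq_range_scalar]
  constructor
  · rintro ⟨u, rfl⟩
    simp [Matrix.GeneralLinearGroup.coe_scalar]
  · rintro ⟨h01, h10, h00⟩
    have h0 : (g : M₂) 0 0 ≠ 0 := fun h => by
      have := Matrix.GeneralLinearGroup.det_ne_zero g
      rw [Matrix.det_fin_two, h01, h, zero_mul, zero_mul, sub_zero] at this
      exact this rfl
    refine ⟨Units.mk0 _ h0, Units.ext ?_⟩
    ext i j
    fin_cases i <;> fin_cases j <;> simp [Matrix.GeneralLinearGroup.coe_scalar, h01, h10, h00]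

theorem exists_smul_of_pr_eq {g h : GL₂} (e : pr g = pr h) : ∃ u : F, u ≠ 0 ∧ (h : M₂) = u • (g : M₂) := by
  obtain ⟨h01, h10, h00⟩ := (pr_eq_one_iff (g⁻¹ * h)).1 (by rw [map_mul, map_inv, e, inv_mul_cancel])
  refine ⟨((g⁻¹ * h : GL₂) : M₂) 0 0, fun h0 => ?_, ?_⟩
  · have := Matrix.GeneralLinearGroup.det_ne_zero (g⁻¹ * h)
    rw [Matrix.det_fin_two, h01, h0, zero_mul, zero_mul, sub_zero] at this
    exact this rfl
  · have hs : ((g⁻¹ * h : GL₂) : M₂) = ((g⁻¹ * h : GL₂) : M₂) 0 0 • (1 : M₂) := by
      ext i j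
      fin_cases i <;> fin_cases j <;> simp [h01, h10, h00]
    have : (h : M₂) = (g : M₂) * ((g⁻¹ * h : GL₂) : M₂) := by
      rw [← Units.val_mul, mul_inv_cancel_left]
    rw [this, hs]
    simp

variable (h2 : (2 : F) ≠ 0) {p : ℕ} [hp : Fact p.Prime] [CharP F p]

include h2 in
theorem p_ne_two : p ≠ 2 := fun e => h2 (by
  have := CharP.cast_eq_zero F p
  rw [e] at this
  exact_mod_cast this)

include h2 in
/-- Zero discriminant gives order dividing `p`. -/
theorem pr_pow_eq_one {g : GL₂} (hg : disc (g : M₂) = 0) : pr g ^ p = 1 := by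
  set s : F := ((g : M₂) 0 0 + (g : M₂) 1 1) / 2 with hs
  set N : M₂ := (g : M₂) - s • (1 : M₂) with hN
  have hNN : N * N = 0 := by
    have h4 : (4 : F) ≠ 0 := by rw [show (4 : F) = 2 * 2 by norm_num]; exact mul_ne_zero h2 h2
    simp only [disc] at hg
    ext i j
    fin_cases i <;> fin_cases j <;>
      simp [hN, hs, Matrix.mul_apply, Fin.sum_univ_two, Matrix.one_apply] <;> field_simp <;>
      first
      | linear_combination hg
      | linear_combination -hg
      | ring
  have hNp : N ^ p = 0 := by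
    obtain ⟨k, hk⟩ : ∃ k, p = 2 + k := ⟨p - 2, by have := hp.out.two_le; omega⟩
    rw [hk, pow_add, pow_two, hNN, zero_mul]
  have hgp : (g : M₂) ^ p = s ^ p • (1 : M₂) := by
    have e : (g : M₂) = s • (1 : M₂) + N := by rw [hN]; abel
    rw [e, add_pow_char_of_commute _ ((Commute.one_left N).smul_left s), hNp, add_zero,
      _root_.smul_pow, one_pow]
  rw [← map_pow, pr_eq_one_iff]
  simp [Units.val_pow_eq_pow_val, hgp]

include h2 in
/-- An element of order `p` has zero discriminant. -/
theorem disc_eq_zero {g : GL₂} (hg : pr g ^ p = 1) : disc (g : M₂) = 0 := by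
  rw [← map_pow, pr_eq_one_iff] at hg
  obtain ⟨h01, h10, h00⟩ := hg
  set x := ((g ^ p : GL₂) : M₂) 0 0 with hx
  obtain ⟨d, hd⟩ : ∃ d, d ^ p = x := by
    haveI : ExpChar F p := ExpChar.prime hp.out
    exact ((Finite.injective_iff_bijective).1 (frobenius_inj F p)).2 x
  set N : M₂ := (g : M₂) - d • (1 : M₂) with hN
  have hxs : (g : M₂) ^ p = x • (1 : M₂) := by
    rw [← Units.val_pow_eq_pow_val]
    ext i j
    fin_cases i <;> fin_cases j <;> simp [h01, h10, ← h00] <;> rfl
  have hNp : N ^ p = 0 := by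
    rw [hN, sub_pow_char_of_commute _ ((Commute.one_right (g : M₂)).smul_right d), hxs,
      _root_.smul_pow, one_pow, hd, sub_self]
  have hdet : N.det = 0 := by
    have := congrArg Matrix.det hNp
    rw [Matrix.det_pow, Matrix.det_zero] at this
    exact (pow_eq_zero_iff hp.out.ne_zero).1 this
  have hNN : N * N = (N 0 0 + N 1 1) • N := by
    rw [Matrix.det_fin_two] at hdet
    ext i j
    fin_cases i <;> fin_cases j <;> simp [Matrix.mul_apply, Fin.sum_univ_two] <;>
      first
      | linear_combination -hdet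
      | linear_combination hdet
      | ring
  have hpow : ∀ k : ℕ, N ^ (k + 1) = (N 0 0 + N 1 1) ^ k • N := by
    intro k
    induction k with
    | zero => simp
    | succ k ih => rw [pow_succ, ih, Matrix.smul_mul, hNN, smul_smul, ← pow_succ]
  have ht : N 0 0 + N 1 1 = 0 := by
    by_contra ht
    obtain ⟨k, hk⟩ : ∃ k, p = k + 1 := ⟨p - 1, by have := hp.out.pos; omega⟩
    rw [hk, hpow, smul_eq_zero] at hNp
    rcases hNp with e | e
    · exact pow_ne_zero k ht e
    · exact ht (by simp [e])
  rw [Matrix.det_fin_two] at hdet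
  simp [hN] at hdet ht
  simp only [disc]
  linear_combination ((g : M₂) 0 0 + (g : M₂) 1 1 - 2 * d) * ht - 4 * hdet

include h2 in
theorem tr_ne_zero {g : GL₂} (hg : disc (g : M₂) = 0) : (g : M₂) 0 0 + (g : M₂) 1 1 ≠ 0 := by
  intro ht
  have hdet := Matrix.GeneralLinearGroup.det_ne_zero g
  rw [Matrix.det_fin_two] at hdet
  apply hdet
  have h4 : (4 : F) ≠ 0 := by rw [show (4 : F) = 2 * 2 by norm_num]; exact mul_ne_zero h2 h2
  refine (mul_eq_zero.1 (?_ : (4 : F) * _ = 0)).resolve_left h4
  simp only [disc] at hg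
  linear_combination ((g : M₂) 0 0 + (g : M₂) 1 1) * ht - hg

include h2 in
/-- Commuting with an element of zero discriminant forces zero discriminant. -/
theorem disc_of_commute {g h : GL₂} (hg : disc (g : M₂) = 0) (hg1 : pr g ≠ 1)
    (hc : pr h * pr g = pr g * pr h) : disc (h : M₂) = 0 := by
  rw [← map_mul, ← map_mul] at hc
  obtain ⟨u, -, hu⟩ := exists_smul_of_pr_eq hc
  have ht := tr_ne_zero h2 hg
  have hu' := fun i j => congrFun (congrFun hu i) j
  have e00 := hu' 0 0
  have e01 := hu' 0 1
  have e10 := hu' 1 0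
  have e11 := hu' 1 1
  simp [Matrix.mul_apply, Fin.sum_univ_two] at e00 e01 e10 e11
  simp only [disc] at hg ⊢
  set a := (g : M₂) 0 0
  set b := (g : M₂) 0 1
  set c := (g : M₂) 1 0
  set e := (g : M₂) 1 1
  set a' := (h : M₂) 0 0
  set b' := (h : M₂) 0 1
  set c' := (h : M₂) 1 0
  set e' := (h : M₂) 1 1
  have hdet : a' * e' - b' * c' ≠ 0 := by
    have := Matrix.GeneralLinearGroup.det_ne_zero h
    rwa [Matrix.det_fin_two] at this
  have hu1 : u = 1 := by
    have : (a + e) * (a' * e' - b' * c') * (u - 1) = 0 := by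
      linear_combination (-e') * e00 + c' * e01 + b' * e10 - a' * e11
    rcases mul_eq_zero.1 this with h | h
    · exact absurd ((mul_eq_zero.1 h).resolve_right hdet) ht
    · linear_combination h
  subst hu1
  simp only [one_mul] at e00 e01 e10 e11
  by_cases hb : b = 0
  · have hae : a = e := by
      rw [hb] at hg
      have := (pow_eq_zero_iff two_ne_zero).1 (show (a - e) ^ 2 = 0 by linear_combination hg)
      linear_combination this
    have hc : c ≠ 0 := fun hc => hg1 ((pr_eq_one_iff g).2 ⟨hb, hc, hae⟩)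
    rw [hb] at e00
    rw [← hae] at e10
    have hb' : b' = 0 := (mul_eq_zero.1 (show b' * c = 0 by
      first
      | linear_combination e00
      | linear_combination -e00)).resolve_right hc
    have hae' : a' = e' := sub_eq_zero.1 ((mul_eq_zero.1 (show (a' - e') * c = 0 by
      first
      | linear_combination e10
      | linear_combination -e10)).resolve_right hc)
    rw [hb', hae']
    ring
  · have h1 : b ^ 2 * ((a' - e') ^ 2 + 4 * (b' * c')) = b' ^ 2 * ((a - e) ^ 2 + 4 * (b * c)) := by
      have k1 : b' * c = b * c' := by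
        first
        | linear_combination e00
        | linear_combination -e00
      have k2 : (a' - e') * b = b' * (a - e) := by
        first
        | linear_combination e01
        | linear_combination -e01
      linear_combination ((a' - e') * b + b' * (a - e)) * k2 - 4 * b * b' * k1
    rw [hg, mul_zero] at h1
    exact (mul_eq_zero.1 h1).resolve_left (pow_ne_zero 2 hb)

include h2 in
/-- The only order divisible by `p` is `p`. -/
theorem orderOf_eq_p {y : PG} (hy : p ∣ orderOf y) : orderOf y = p := by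
  obtain ⟨h, rfl⟩ := pr_surjective y
  have ho : orderOf (pr h ^ (orderOf (pr h) / p)) = p := orderOf_pow_orderOf_div (orderOf_pos _).ne' hy
  obtain ⟨g, hg⟩ := pr_surjective (pr h ^ (orderOf (pr h) / p))
  have hd : disc (g : M₂) = 0 := disc_eq_zero h2 (p := p) (by rw [hg]; nth_rewrite 2 [← ho]; exact pow_orderOf_eq_one _)
  have hg1 : pr g ≠ 1 := fun e => by
    rw [← hg, e, orderOf_one] at ho
    exact hp.out.one_lt.ne ho
  have hh := disc_of_commute h2 (h := h) hd hg1 (by rw [hg, (Commute.self_pow (pr h) _).eq])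
  exact orderOf_eq_prime (pr_pow_eq_one h2 hh) fun e => by
    rw [e, orderOf_one] at hy
    exact hp.out.one_lt.ne' (Nat.dvd_one.1 hy)

omit hp [CharP F p] in
/-- The cone has `q²` points. -/
theorem card_cone : Nat.card {v : F × F × F // v.1 * v.1 + v.2.1 * v.2.2 = 0} = Fintype.card F ^ 2 := by
  classical
  let φ : F × F → {v : F × F × F // v.1 * v.1 + v.2.1 * v.2.2 = 0} := fun w =>
    if h : w.2 = 0 then ⟨(0, 0, w.1), by simp⟩
    else ⟨(w.1, w.2, -(w.1 * w.1) / w.2), by field_simp; ring⟩
  have hφ : Function.Bijective φ := by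
    constructor
    · rintro ⟨x, y⟩ ⟨x', y'⟩ e
      have e' := congrArg Subtype.val e
      by_cases hy : y = 0 <;> by_cases hy' : y' = 0 <;>
        simp [φ, hy, hy', Prod.ext_iff, eq_comm (a := (0 : F))] at e' ⊢ <;> tauto
    · rintro ⟨⟨a, b, c⟩, h⟩
      by_cases hb : b = 0
      · have ha : a = 0 := by simpa [hb] using h
        exact ⟨(c, 0), Subtype.ext (by simp [φ, hb, ha])⟩
      · refine ⟨(a, b), Subtype.ext ?_⟩
        simp [φ, hb, Prod.ext_iff]
        field_simp
        linear_combination -h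
  rw [← Nat.card_eq_of_bijective φ hφ, Nat.card_prod, Nat.card_eq_fintype_card, pow_two]

include h2 in
theorem count_p : orderCount PG p + 1 = Fintype.card F ^ 2 := by
  classical
  rw [← card_cone]
  have hmk : ∀ v : {v : F × F × F // v.1 * v.1 + v.2.1 * v.2.2 = 0},
      (!![1 + v.1.1, v.1.2.1; v.1.2.2, 1 - v.1.1] : M₂).det ≠ 0 := fun v => by
    rw [Matrix.det_fin_two_of, show (1 + v.1.1) * (1 - v.1.1) - v.1.2.1 * v.1.2.2 = 1 by
      linear_combination -v.2]
    exact one_ne_zero
  let φ : {v : F × F × F // v.1 * v.1 + v.2.1 * v.2.2 = 0} → {y : PG // y ^ p = 1} := fun v =>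
    ⟨pr (Matrix.GeneralLinearGroup.mkOfDetNeZero _ (hmk v)), pr_pow_eq_one h2 (by
      show disc (!![1 + v.1.1, v.1.2.1; v.1.2.2, 1 - v.1.1] : M₂) = 0
      simp [disc]
      linear_combination 4 * v.2)⟩
  have hφ : Function.Bijective φ := by
    constructor
    · rintro ⟨⟨a, b, c⟩, hv⟩ ⟨⟨a', b', c'⟩, hv'⟩ e
      obtain ⟨u, -, hu⟩ := exists_smul_of_pr_eq (congrArg Subtype.val e)
      have hu' : (!![1 + a', b'; c', 1 - a'] : M₂) = u • !![1 + a, b; c, 1 - a] := hu
      have e00 := congrFun (congrFun hu' 0) 0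
      have e01 := congrFun (congrFun hu' 0) 1
      have e10 := congrFun (congrFun hu' 1) 0
      have e11 := congrFun (congrFun hu' 1) 1
      simp at e00 e01 e10 e11
      have hu1 : u = 1 := by
        have : (2 : F) * (u - 1) = 0 := by linear_combination -e00 - e11
        linear_combination (mul_eq_zero.1 this).resolve_left h2
      subst hu1
      simp at e00 e01 e10
      simp [e00, e01, e10]
    · rintro ⟨y, hy⟩
      obtain ⟨g, rfl⟩ := pr_surjective y
      have hd := disc_eq_zero h2 hy
      have ht := tr_ne_zero h2 hd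
      simp only [disc] at hd
      set a := (g : M₂) 0 0 with ha
      set e := (g : M₂) 1 1 with he
      refine ⟨⟨((a - e) / (a + e), 2 * (g : M₂) 0 1 / (a + e), 2 * (g : M₂) 1 0 / (a + e)), by
        field_simp; linear_combination hd⟩, Subtype.ext ?_⟩
      show pr _ = pr g
      rw [← inv_mul_eq_one, ← map_inv, ← map_mul, pr_eq_one_iff]
      set M : GL₂ := Matrix.GeneralLinearGroup.mkOfDetNeZero _ (hmk _) with hM
      have hgM : (g : M₂) = ((a + e) / 2) • (M : M₂) := by
        show (g : M₂) = ((a + e) / 2) • !![_, _; _, _]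
        ext i j
        fin_cases i <;> fin_cases j <;> simp [← ha, ← he] <;> field_simp <;> ring
      have hk : ((M⁻¹ * g : GL₂) : M₂) = ((a + e) / 2) • (1 : M₂) := by
        rw [Units.val_mul, hgM, Matrix.mul_smul, ← Units.val_mul, inv_mul_cancel, Units.val_one]
      rw [hk]
      simp
  rw [Nat.card_eq_of_bijective φ hφ, orderCount]
  haveI := Fintype.ofFinite PG
  rw [Nat.card_eq_fintype_card, Nat.card_eq_fintype_card, Fintype.card_subtype, Fintype.card_subtype,
    ← Finset.card_insert_of_notMem (a := (1 : PG)) (by simp [hp.out.one_lt.ne])]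
  congr 1
  ext y
  simp only [Finset.mem_insert, Finset.mem_filter, Finset.mem_univ, true_and]
  constructor
  · rintro (rfl | e)
    · exact one_pow p
    · rw [← e]; exact pow_orderOf_eq_one y
  · intro e
    by_cases h1 : y = 1
    · exact Or.inl h1
    · exact Or.inr (orderOf_eq_prime e h1)

omit hp [CharP F p] in
include h2 in
theorem orderOf_two_iff (g : GL₂) : orderOf (pr g) = 2 ↔ (g : M₂) 0 0 + (g : M₂) 1 1 = 0 := by
  constructor
  · intro ho
    have hsq : pr (g * g) = 1 := by
      have := pow_orderOf_eq_one (pr g)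
      rwa [ho, pow_two, ← map_mul] at this
    obtain ⟨h01, h10, h00⟩ := (pr_eq_one_iff _).1 hsq
    simp [Matrix.mul_apply, Fin.sum_univ_two] at h01 h10 h00
    by_contra ht
    have hne : pr g ≠ 1 := fun e => by rw [e, orderOf_one] at ho; omega
    refine hne ((pr_eq_one_iff g).2 ⟨?_, ?_, ?_⟩)
    · exact (mul_eq_zero.1 (show (g : M₂) 0 1 * ((g : M₂) 0 0 + (g : M₂) 1 1) = 0 by
        linear_combination h01)).resolve_right ht
    · exact (mul_eq_zero.1 (show (g : M₂) 1 0 * ((g : M₂) 0 0 + (g : M₂) 1 1) = 0 by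
        linear_combination h10)).resolve_right ht
    · exact sub_eq_zero.1 ((mul_eq_zero.1 (show ((g : M₂) 0 0 - (g : M₂) 1 1) *
        ((g : M₂) 0 0 + (g : M₂) 1 1) = 0 by linear_combination h00)).resolve_right ht)
  · intro ht
    refine orderOf_eq_prime ?_ fun e => ?_
    · rw [pow_two, ← map_mul, pr_eq_one_iff]
      simp [Matrix.mul_apply, Fin.sum_univ_two]
      refine ⟨by linear_combination (g : M₂) 0 1 * ht, by linear_combination (g : M₂) 1 0 * ht,
        by linear_combination ((g : M₂) 0 0 - (g : M₂) 1 1) * ht⟩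
    · obtain ⟨h01, h10, h00⟩ := (pr_eq_one_iff g).1 e
      have hdet := Matrix.GeneralLinearGroup.det_ne_zero g
      rw [← h00] at ht
      have : (g : M₂) 0 0 = 0 := (mul_eq_zero.1 (show (2 : F) * (g : M₂) 0 0 = 0 by
        linear_combination ht)).resolve_left h2
      rw [Matrix.det_fin_two, h01, this] at hdet
      simp at hdet

omit hp [CharP F p] in
include h2 in
theorem count_two : orderCount PG 2 = Fintype.card F ^ 2 := by
  classical
  haveI := Fintype.ofFinite GL₂
  set q := Fintype.card F with hq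
  have h1 : 1 < q := Fintype.one_lt_card
  have hZ : Nat.card (Subgroup.center GL₂) = q - 1 := by
    rw [Matrix.GeneralLinearGroup.center_eq_range_scalar, hq, ← Fintype.card_units, ← Nat.card_eq_fintype_card]
    refine (Nat.card_congr (MonoidHom.ofInjective fun u v h => Units.ext ?_).toEquiv).symm
    have := congrArg (fun g : GL₂ => g 0 0) h
    simpa [Matrix.GeneralLinearGroup.coe_scalar] using this
  have hfib : Nat.card {g : GL₂ // orderOf (pr g) = 2} = (q - 1) * orderCount PG 2 := by
    rw [← hZ, orderCount, ← Nat.card_prod]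
    exact Nat.card_congr (QuotientGroup.preimageMkEquivSubgroupProdSet (Subgroup.center GL₂)
      {y : PG | orderOf y = 2})
  have htr : Nat.card {g : GL₂ // orderOf (pr g) = 2} =
      Nat.card {v : F × F × F // ¬ v.1 * v.1 + v.2.1 * v.2.2 = 0} := by
    refine Nat.card_congr ((Equiv.subtypeEquivRight (orderOf_two_iff h2)).trans ?_)
    exact
      { toFun := fun g => ⟨((g.1 : M₂) 0 0, (g.1 : M₂) 0 1, (g.1 : M₂) 1 0), fun e => by
          have hdet := Matrix.GeneralLinearGroup.det_ne_zero g.1
          rw [Matrix.det_fin_two] at hdet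
          exact hdet (by linear_combination (g.1 : M₂) 0 0 * g.2 - e)⟩
        invFun := fun v => ⟨Matrix.GeneralLinearGroup.mkOfDetNeZero !![v.1.1, v.1.2.1; v.1.2.2, -v.1.1]
          (by rw [Matrix.det_fin_two_of]; exact fun e => v.2 (by linear_combination -e)), by
          show (!![v.1.1, v.1.2.1; v.1.2.2, -v.1.1] : M₂) 0 0 + (!![v.1.1, v.1.2.1; v.1.2.2, -v.1.1] : M₂) 1 1 = 0
          simp⟩
        left_inv := fun g => Subtype.ext (Units.ext (by
          show (!![_, _; _, _] : M₂) = (g.1 : M₂)
          ext i j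
          fin_cases i <;> fin_cases j <;> simp
          linear_combination -g.2))
        right_inv := fun v => Subtype.ext (by
          show ((!![_, _; _, _] : M₂) 0 0, (!![_, _; _, _] : M₂) 0 1, (!![_, _; _, _] : M₂) 1 0) = v.1
          simp) }
  have hcompl : Nat.card {v : F × F × F // ¬ v.1 * v.1 + v.2.1 * v.2.2 = 0} + q ^ 2 = q ^ 3 := by
    rw [hq, ← card_cone, Nat.card_eq_fintype_card, Nat.card_eq_fintype_card, Fintype.card_subtype_compl,
      Nat.sub_add_cancel (Fintype.card_subtype_le _)]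
    simp; ring
  rw [← htr, hfib] at hcompl
  obtain ⟨c, hc⟩ : ∃ c, q = c + 1 := ⟨q - 1, by omega⟩
  rw [hc, Nat.add_sub_cancel] at hcompl
  rw [hc]
  apply Nat.eq_of_mul_eq_mul_left (show 0 < c by omega)
  have : (c + 1) ^ 3 = c * (c + 1) ^ 2 + (c + 1) ^ 2 := by ring
  omega

omit hp [CharP F p] in
include h2 in
/-- The values of the counts. -/
theorem count_cases (p : ℕ) [hp : Fact p.Prime] [CharP F p] (k : ℕ) (hk : orderCount PG k ≠ 0) :
    orderCount PG k = 1 ∨ orderCount PG k = Fintype.card F * Fintype.card F ∨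
      orderCount PG k + 1 = Fintype.card F * Fintype.card F ∨
      (Fintype.card F ∣ orderCount PG k ∧ Even (orderCount PG k)) := by
  classical
  by_cases h1 : k = 1
  · exact Or.inl (by rw [h1, orderCount_one])
  by_cases h2' : k = 2
  · exact Or.inr (Or.inl (by rw [h2', count_two h2, pow_two]))
  by_cases hkp : k = p
  · exact Or.inr (Or.inr (Or.inl (by rw [hkp, count_p h2, pow_two])))
  obtain ⟨g, hg⟩ := orderCount_ne_zero_iff.1 hk
  have hgpos := orderOf_pos g
  refine Or.inr (Or.inr (Or.inr ⟨?_, even_orderCount (by omega)⟩))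
  haveI := Fintype.ofFinite PG
  obtain ⟨n, hfp, hqn⟩ := FiniteField.card F p
  rw [orderCount, Nat.card_eq_fintype_card, Fintype.card_subtype]
  refine ClassSizesPSL.dvd_card_of_forall _ (fun y hy x => ?_) fun y hy => ?_
  · simp only [Finset.mem_filter, Finset.mem_univ, true_and] at hy ⊢
    exact (MulEquiv.orderOf_eq (MulAut.conj x) y).trans hy
  simp only [Finset.mem_filter, Finset.mem_univ, true_and] at hy
  have hpk : ¬ p ∣ k := fun hd => hkp (hy ▸ orderOf_eq_p h2 (hy.symm ▸ hd))
  have hco : Nat.Coprime (Fintype.card F) (Nat.card (Subgroup.centralizer ({y} : Set PG))) := by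
    rw [hqn]
    refine Nat.Coprime.pow_left _ ((hfp.coprime_iff_not_dvd).2 fun hd => ?_)
    obtain ⟨⟨u, hu⟩, huo⟩ := exists_prime_orderOf_dvd_card' (G := Subgroup.centralizer ({y} : Set PG)) p hd
    rw [Subgroup.orderOf_mk] at huo
    have hc : Commute u y := Subgroup.mem_centralizer_singleton_iff.1 hu
    have ho := hc.orderOf_mul_eq_mul_orderOf_of_coprime (by
      rw [huo, hy]; exact (hfp.coprime_iff_not_dvd).2 hpk)
    rw [huo, hy] at ho
    have h' := orderOf_eq_p h2 (y := u * y) (p := p) (ho ▸ dvd_mul_right p k)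
    rw [ho] at h'
    exact h1 (Nat.eq_of_mul_eq_mul_left hp.out.pos (h'.trans (mul_one p).symm))
  refine hco.dvd_of_dvd_mul_left ?_
  rw [Subgroup.card_mul_index]
  show Fintype.card F ∣ Nat.card (Matrix.ProjGenLinGroup (Fin 2) F)
  rw [AltGroups.card_PGL_two]
  exact dvd_mul_right _ _

end CfsgLib.NSEPGL
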